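import Mathlib
import Cfsg.Prelude.Def_DegreeGraph
import Cfsg.Agent.Lib.Char.BurnsidePQ
import Cfsg.Agent.Lib.Deg.Cliff

/-!
# Primes dividing character degrees of nonsolvable groups (helper14)

Column orthogonality and Burnside's vanishing theorem give, in a nonabelian simple group, for
all primes `p ∣ |G|` and `q` a character degree prime to `q` with a prime divisor other than `p`.
-/

set_option autoImplicit false

namespace H14.DG

open Cfsg

universe u

section

variable {G : Type*} [Group G] [Finite G]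

/-- For `g ≠ 1` and a prime `q`, some non-principal irreducible character of degree prime to `q`
does not vanish at `g`. -/
theorem exists_irr_ne_zero {q : ℕ} (hq : q.Prime) {g : G} (hg : g ≠ 1) :
    ∃ χ : G → ℂ, IsIrrCharacter G χ ∧ χ ≠ (fun _ => 1) ∧ χ g ≠ 0 ∧ ¬ q ∣ charDegree χ := by
  classical
  by_contra hcon
  push Not at hcon
  have hsum := H6.sum_irr_one_mul hg
  let one : IrrCharacter G := ⟨fun _ => 1, H6.isIrrCharacter_one⟩
  rw [← Finset.add_sum_erase _ _ (Finset.mem_univ one)] at hsum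
  have hp0 : (q : ℂ) ≠ 0 := by exact_mod_cast hq.ne_zero
  have hterm : ∀ χ ∈ Finset.univ.erase one,
      IsIntegral ℤ ((χ : G → ℂ) 1 * (χ : G → ℂ) g / q) := by
    intro χ hχ
    have hne : (χ : G → ℂ) ≠ fun _ => 1 := fun h => (Finset.mem_erase.1 hχ).1 (Subtype.ext h)
    by_cases h0 : (χ : G → ℂ) g = 0
    · rw [h0]; simp [isIntegral_zero]
    · obtain ⟨m, hm⟩ := hcon χ χ.2 hne h0
      rw [← H87.deg_cast' χ, hm]
      push_cast
      rw [mul_assoc, mul_div_cancel_left₀ _ hp0]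
      exact (isIntegral_algebraMap (R := ℤ) (x := (m : ℤ))).mul
        (H8.IsIrrCharacter_isIntegral χ.2 g)
  have hint := (IsIntegral.sum _ hterm).neg
  rw [← Finset.sum_div] at hint
  have h1 : -((∑ χ ∈ Finset.univ.erase one, (χ : G → ℂ) 1 * (χ : G → ℂ) g) / q) =
      ((1 : ℕ) : ℂ) / (q : ℂ) := by
    rw [← neg_div]
    congr 1
    simp only [one, mul_one] at hsum
    push_cast
    linear_combination -hsum
  rw [h1] at hint
  exact hq.one_lt.ne' (Nat.dvd_one.1 (H8.dvd_of_isIntegral_div hq.pos hint))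

/-- In a nonabelian simple group a non-principal irreducible character whose degree is prime to
the class size of `g ≠ 1` vanishes at `g`. -/
theorem eq_zero_of_coprime [IsSimpleGroup G] (hG : ¬ ∀ a b : G, a * b = b * a) {χ : G → ℂ}
    (hχ : IsIrrCharacter G χ) (hne : χ ≠ fun _ => 1) {g : G} (hg : g ≠ 1)
    (hc : (charDegree χ).Coprime (Subgroup.centralizer ({g} : Set G)).index) : χ g = 0 := by
  rcases H8.irr_eq_zero_or_norm_eq hχ (H87.irr_deg_cast hχ).symm g hc with h | hnorm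
  · exact h
  exfalso
  have hker : H6.charKer χ = ⊥ := by
    rcases (H6.charKer_normal χ).eq_bot_or_eq_top with h | h
    · exact h
    · exfalso
      apply hne
      refine H8.irr_eq_one_of_forall_eq hχ fun x => ?_
      exact (H6.mem_charKer (H6.irr_isCharacter hχ)).1 (h ▸ Subgroup.mem_top x)
  have hz : g ∈ Subgroup.center G := by
    rw [Subgroup.mem_center_iff]
    intro x
    have := H8.commutator_mem_charKer_of_norm_eq (H6.irr_isCharacter hχ) hnorm x
    rw [hker, Subgroup.mem_bot] at this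
    calc x * g = (g * x * g⁻¹ * x⁻¹) * (x * g) := by rw [this, one_mul]
      _ = g * x := by group
  rcases (inferInstance : (Subgroup.center G).Normal).eq_bot_or_eq_top with h | h
  · rw [h, Subgroup.mem_bot] at hz
    exact absurd hz hg
  · exact hG fun a b => (Subgroup.mem_center_iff.1 (h ▸ Subgroup.mem_top a) b).symm

/-- A non-identity element whose class size is prime to `p`. -/
theorem exists_central {p : ℕ} (hp : p.Prime) (hd : p ∣ Nat.card G) :
    ∃ z : G, z ≠ 1 ∧ ¬ p ∣ (Subgroup.centralizer ({z} : Set G)).index := by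
  have : Fact p.Prime := ⟨hp⟩
  obtain ⟨P⟩ := (inferInstance : Nonempty (Sylow p G))
  have hP : Nontrivial P := by
    rw [Subgroup.nontrivial_iff_ne_bot]
    exact P.ne_bot_of_dvd_card hd
  have := P.isPGroup'.center_nontrivial
  obtain ⟨z, hz⟩ := exists_ne (1 : Subgroup.center P)
  have hz1 : ((z : P) : G) ≠ 1 := fun h => hz (Subtype.ext (Subtype.ext h))
  have hle : (P : Subgroup G) ≤ Subgroup.centralizer {((z : P) : G)} := by
    intro x hx
    rw [Subgroup.mem_centralizer_singleton_iff]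
    exact congrArg Subtype.val (Subgroup.mem_center_iff.1 z.2 ⟨x, hx⟩)
  exact ⟨_, hz1, fun h => P.not_dvd_index (h.trans (Subgroup.index_dvd_of_le hle))⟩

/-- In a nonabelian simple group, for primes `p ∣ |G|` and `q` some degree prime to `q` has a prime
divisor other than `p`. -/
theorem exists_deg [IsSimpleGroup G] (hG : ¬ ∀ a b : G, a * b = b * a) {p q : ℕ} (hp : p.Prime)
    (hd : p ∣ Nat.card G) (hq : q.Prime) :
    ∃ d ∈ charDegrees G, ¬ q ∣ d ∧ ∃ r : ℕ, r.Prime ∧ r ∣ d ∧ r ≠ p := by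
  obtain ⟨z, hz, hpz⟩ := exists_central hp hd
  obtain ⟨χ, hχ, hne, h0, hqd⟩ := exists_irr_ne_zero hq hz
  refine ⟨_, ⟨⟨χ, hχ⟩, rfl⟩, hqd, ?_⟩
  have hc : ¬ (charDegree χ).Coprime (Subgroup.centralizer ({z} : Set G)).index :=
    fun hc => h0 (eq_zero_of_coprime hG hχ hne hz hc)
  obtain ⟨r, hr, h1, h2⟩ := Nat.Prime.not_coprime_iff_dvd.1 hc
  exact ⟨r, hr, h1, fun h => hpz (h ▸ h2)⟩

theorem dvd_card_of_mem {p : ℕ} (hp : p ∈ degreePrimes G) : p ∣ Nat.card G := by
  obtain ⟨-, d, ⟨χ, rfl⟩, h⟩ := hp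
  exact h.trans (H87.deg_dvd_card χ.2)

theorem exists_mem [IsSimpleGroup G] (hG : ¬ ∀ a b : G, a * b = b * a) {p q : ℕ} (hp : p.Prime)
    (hd : p ∣ Nat.card G) (hq : q.Prime) : ∃ r ∈ degreePrimes G, r ≠ p ∧ r ≠ q := by
  obtain ⟨d, hd, hqd, r, hr, h1, h2⟩ := exists_deg hG hp hd hq
  exact ⟨r, ⟨hr, d, hd, h1⟩, h2, fun h => hqd (h ▸ h1)⟩

/-- Degrees of a normal subgroup divide degrees of the group. -/
theorem exists_deg_normal (N : Subgroup G) [N.Normal] {d : ℕ} (hd : d ∈ charDegrees N) :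
    ∃ e ∈ charDegrees G, d ∣ e := by
  obtain ⟨θ, rfl⟩ := hd
  obtain ⟨χ, hχ, h⟩ := H87.exists_deg_dvd N θ.2
  exact ⟨_, ⟨⟨χ, hχ⟩, rfl⟩, h⟩

theorem deg_quot (N : Subgroup G) [N.Normal] {d : ℕ} (hd : d ∈ charDegrees (G ⧸ N)) :
    d ∈ charDegrees G := by
  obtain ⟨θ, rfl⟩ := hd
  exact ⟨⟨_, H87.isIrr_infl N θ.2⟩, H87.deg_infl N _⟩

theorem primes_normal (N : Subgroup G) [N.Normal] : degreePrimes N ⊆ degreePrimes G := by
  rintro p ⟨hp, d, hd, h⟩
  obtain ⟨e, he, h'⟩ := exists_deg_normal N hd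
  exact ⟨hp, e, he, h.trans h'⟩

theorem primes_quot (N : Subgroup G) [N.Normal] : degreePrimes (G ⧸ N) ⊆ degreePrimes G := by
  rintro p ⟨hp, d, hd, h⟩
  exact ⟨hp, d, deg_quot N hd, h⟩

end

/-- Induction principle: a property of nonabelian simple groups inherited from normal subgroups
and quotients holds for all nonsolvable groups. -/
theorem nonsolv_ind (P : ∀ (G : Type u) [Group G], Prop)
    (hs : ∀ (G : Type u) [Group G] [Finite G] [IsSimpleGroup G], (¬ ∀ a b : G, a * b = b * a) → P G)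
    (hN : ∀ (G : Type u) [Group G] [Finite G] (N : Subgroup G) [N.Normal], P N → P G)
    (hQ : ∀ (G : Type u) [Group G] [Finite G] (N : Subgroup G) [N.Normal], P (G ⧸ N) → P G)
    (n : ℕ) : ∀ (G : Type u) [Group G] [Finite G], Nat.card G = n → ¬ Group.IsSolvable G → P G := by
  induction n using Nat.strong_induction_on with
  | _ n ih =>
  intro G _ _ hn hG
  rcases subsingleton_or_nontrivial G with hG' | hG'
  · exact absurd (Group.isSolvable_of_comm fun a b => Subsingleton.elim _ _) hG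
  by_cases hs' : IsSimpleGroup G
  · exact hs G fun h => hG (Group.isSolvable_of_comm h)
  · obtain ⟨N, hN', h1, h2⟩ : ∃ N : Subgroup G, N.Normal ∧ N ≠ ⊥ ∧ N ≠ ⊤ := by
      by_contra hcon
      push Not at hcon
      exact hs' ⟨fun N hN => by
        by_cases h : N = ⊥
        · exact Or.inl h
        · exact Or.inr (hcon N hN h)⟩
    rw [Group.isSolvable_iff_subgroup_quotient N, not_and_or] at hG
    have hmul := N.card_mul_index
    have h3 : 1 < Nat.card N := (Subgroup.one_lt_card_iff_ne_bot N).2 h1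
    have h4 : 1 < N.index := Subgroup.one_lt_index_of_ne_top h2
    rcases hG with hG | hG
    · refine hN G N (ih (Nat.card N) ?_ N rfl hG)
      rw [← hn, ← hmul]
      nlinarith
    · refine hQ G N (ih (Nat.card (G ⧸ N)) ?_ (G ⧸ N) rfl hG)
      rw [← hn, ← hmul]
      change N.index < _
      nlinarith

/-- The degrees of a nonsolvable group involve three primes. -/
theorem three {G : Type u} [Group G] [Finite G] (hG : ¬ Group.IsSolvable G) :
    ∃ p q r : ℕ, p ≠ q ∧ q ≠ r ∧ p ≠ r ∧ p ∈ degreePrimes G ∧ q ∈ degreePrimes G ∧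
      r ∈ degreePrimes G := by
  refine nonsolv_ind (fun G _ => ∃ p q r : ℕ, p ≠ q ∧ q ≠ r ∧ p ≠ r ∧ p ∈ degreePrimes G ∧
    q ∈ degreePrimes G ∧ r ∈ degreePrimes G) ?_ ?_ ?_ _ G rfl hG
  · intro G _ _ _ hG
    obtain ⟨s, hs, hsd⟩ := Nat.exists_prime_and_dvd (Finite.one_lt_card (α := G)).ne'
    obtain ⟨p, hp, -⟩ := exists_mem hG hs hsd hs
    obtain ⟨q, hq, h1, -⟩ := exists_mem hG hp.1 (dvd_card_of_mem hp) hp.1
    obtain ⟨r, hr, h2, h3⟩ := exists_mem hG hp.1 (dvd_card_of_mem hp) hq.1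
    exact ⟨p, q, r, h1.symm, h3.symm, h2.symm, hp, hq, hr⟩
  · rintro G _ _ N _ ⟨p, q, r, h1, h2, h3, hp, hq, hr⟩
    exact ⟨p, q, r, h1, h2, h3, primes_normal N hp, primes_normal N hq, primes_normal N hr⟩
  · rintro G _ _ N _ ⟨p, q, r, h1, h2, h3, hp, hq, hr⟩
    exact ⟨p, q, r, h1, h2, h3, primes_quot N hp, primes_quot N hq, primes_quot N hr⟩

end H14.DG
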